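import Cfsg.Agent.H537.RV.SRowLie
import Cfsg.Agent.H248.TitsRGD

/-!
# S3849, piece P2: own characteristic, `2 ∉ π` (helper537)

* `WCM p S` : for `U ≤ M` some subgroup `V ≤ U` normalised by `M` such that `V ≤ gUg⁻¹` implies `g ∈ M N(U)`;
  `wcm_of_rgd`, `wcm_of_one_node`, `wcm_of_lie`;
* `dom_over` : `Dom π M` for the overgroups of the Hall subgroups;
* **`dom_over_own`** : groups of Lie type in characteristic `p ∈ π`, `2 ∉ π`.
-/

set_option autoImplicit false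
set_option linter.unusedSectionVars false

namespace Cfsg.Agent.H537.RV

open Subgroup Cfsg Cfsg.Agent.H988.CPi Cfsg.Agent.H571.DExt Cfsg.Agent.H571.RV Cfsg.Agent.Solvable.SZ
open scoped Pointwise

/-- the property of the unipotent radicals -/
def WCM (p : ℕ) (S : Type*) [Group S] : Prop :=
  ∀ U : Sylow p S, ∀ M : Subgroup S, (U : Subgroup S) ≤ M → ∃ V : Subgroup S, V ≤ (U : Subgroup S) ∧
    M ≤ normalizer (V : Set S) ∧ ∀ g : S, V ≤ MulAut.conj g • (U : Subgroup S) →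
      ∃ m ∈ M, m⁻¹ * g ∈ normalizer ((U : Subgroup S) : Set S)

variable {S : Type*} [Group S] [Finite S] {p : ℕ} [hp : Fact p.Prime]

theorem wcm_of_one (U : Sylow p S)
    (h : ∀ M : Subgroup S, (U : Subgroup S) ≤ M → ∃ V : Subgroup S, V ≤ (U : Subgroup S) ∧
      M ≤ normalizer (V : Set S) ∧ ∀ g : S, V ≤ MulAut.conj g • (U : Subgroup S) →
        ∃ m ∈ M, m⁻¹ * g ∈ normalizer ((U : Subgroup S) : Set S)) : WCM p S := by
  intro U₁ M hM
  obtain ⟨a, ha⟩ := MulAction.exists_smul_eq S U U₁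
  have ha' : (U₁ : Subgroup S) = MulAut.conj a • (U : Subgroup S) := by rw [← ha]; rfl
  have h1 : (U : Subgroup S) ≤ MulAut.conj a⁻¹ • M := by
    intro x hx
    rw [mem_pointwise_smul_iff_inv_smul_mem, map_inv, inv_inv]
    apply hM
    rw [ha']
    exact smul_mem_pointwise_smul x _ _ hx
  obtain ⟨V, hVU, hMV, hV⟩ := h _ h1
  refine ⟨MulAut.conj a • V, ?_, ?_, ?_⟩
  · rw [ha']
    exact smul_mono_right _ hVU
  · rw [← smul_normalizer]
    have h2 := smul_mono_right (MulAut.conj a) hMV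
    rwa [← mul_smul, ← map_mul, mul_inv_cancel, map_one, one_smul] at h2
  · intro g hg
    obtain ⟨m, hm, hm'⟩ := hV (a⁻¹ * g * a) (by
      have h2 := smul_mono_right (MulAut.conj a⁻¹) hg
      rw [← mul_smul, ← map_mul, inv_mul_cancel, map_one, one_smul, ha', ← mul_smul, ← mul_smul, ← map_mul,
        ← map_mul] at h2
      exact h2)
    refine ⟨a * m * a⁻¹, ?_, ?_⟩
    · rw [mem_pointwise_smul_iff_inv_smul_mem, map_inv, inv_inv] at hm
      exact hm
    · rw [ha', ← smul_normalizer, mem_pointwise_smul_iff_inv_smul_mem, ← map_inv]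
      show a⁻¹ * ((a * m * a⁻¹)⁻¹ * g) * a⁻¹⁻¹ ∈ _
      have e : a⁻¹ * ((a * m * a⁻¹)⁻¹ * g) * a⁻¹⁻¹ = m⁻¹ * (a⁻¹ * g * a) := by group
      rw [e]
      exact hm'

section rgd

open CoxeterSystem Cfsg.Agent.ChevalleyStructure.CoxeterGeom Cfsg.Agent.Tits.Roots Cfsg.Agent.Tits.Core
  Cfsg.Agent.Tits.RootComb Cfsg.Agent.Tits.Exchange Cfsg.Agent.Nodes.Reps Cfsg.Agent.Nodes.BNOf
  Cfsg.Agent.Nodes.StabComb Cfsg.Agent.Nodes.Bruhat Cfsg.Agent.Nodes.OppDec Cfsg.Agent.Nodes.LeviDec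
  Cfsg.Agent.KFacts.RgdVJ Cfsg.Agent.H248.TitsRGD

variable {I W : Type*} [Fintype I] [DecidableEq I] [Group W] {M : CoxeterMatrix I}
  {cs : CoxeterSystem M W} {A : I → I → ℤ} {h : IsCartan M A} {T : Subgroup S} {n : I → S}
  {X : (I → ℤ) → Subgroup S}

/-- root group data -/
theorem wcm_of_rgd (R : RGD cs h p T n X) [Finite W] (hGG : GG cs h T X = ⊤) (hn : NorLe p S) : WCM p S := by
  have hi := KFacts.RgdSyl.not_dvd_relIndex R
  rw [hGG, Subgroup.relIndex_top_right] at hi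
  refine wcm_of_one (R.isPGroup_Upos.toSylow hi) fun P hP => ?_
  change RGD.Sup X (RGD.Pos cs h) ≤ P at hP
  have hU : RGD.B cs h T X = normalizer (RGD.Sup X (RGD.Pos cs h) : Set S) := by
    have h3 := KFacts.RgdEx.normalizer_U R
    rw [hGG, inf_top_eq] at h3
    exact h3.symm
  have hBP : RGD.B cs h T X ≤ normalizer (P : Set S) := by
    rw [hU]
    exact hn (R.isPGroup_Upos.toSylow hi) P hP
  refine ⟨VJ cs h X (JU T n P), VJ_le_U _, ?_, fun g hg => ?_⟩
  · exact (le_PJ R hP (by rw [hGG]; exact le_top)).trans (PJ_le_normalizer_VJ R _)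
  · change VJ cs h X (JU T n P) ≤ cj g (RGD.Sup X (RGD.Pos cs h)) at hg
    have h1 : cj g⁻¹ (VJ cs h X (JU T n P)) ≤ RGD.Sup X (RGD.Pos cs h) := by
      intro y hy
      rw [mem_cj] at hy
      have h2 := hg hy
      rw [mem_cj] at h2
      have e : g⁻¹ * (g⁻¹⁻¹ * y * g⁻¹) * g = y := by group
      rwa [e] at h2
    have h2 := mem_PJ_of_cj_le R (by rw [hGG]; trivial) h1
    have h3 : g ∈ PJ cs h T X (JU T n P) := by
      have := inv_mem h2
      rwa [inv_inv] at this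
    obtain ⟨w, hw, b₁, hb₁, k, hk, b₂, hb₂, rfl⟩ := (mem_PJ_iff_cell R).1 h3
    obtain ⟨k', hk', hkr⟩ := exists_rp_mem R hw
    -- `k = k' t`
    have ht : k'⁻¹ * k ∈ T := by
      have h4 := hkr.inv.mul hk
      rw [inv_mul_cancel] at h4
      exact h4.mem_of_one
    refine ⟨b₁ * k' * b₁⁻¹, (mem_normalizer_iff.1 (hBP hb₁) k').1 hk', ?_⟩
    have e : (b₁ * k' * b₁⁻¹)⁻¹ * (b₁ * k * b₂) = b₁ * (k'⁻¹ * k) * b₂ := by group
    rw [e]
    show _ ∈ normalizer (RGD.Sup X (RGD.Pos cs h) : Set S)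
    rw [← hU]
    exact mul_mem (mul_mem hb₁ (RGD.T_le_B ht)) hb₂

end rgd

/-- one node -/
theorem wcm_of_one_node [IsSimpleGroup S] (hn : NorLe p S) (P : Cfsg.BNPair S) {U : Subgroup S}
    (h : Cfsg.Agent.FixBN.Split P p U) {s : S} (hs : P.S = {s}) : WCM p S := by
  obtain ⟨Q, hQ⟩ := h.isP.exists_le_sylow
  have hQU : (Q : Subgroup S) = U := H794.DefClosed.eq_of_isPGroup h Q.isPGroup' hQ
  subst hQU
  refine wcm_of_one Q fun M hM => ?_
  have h1 : P.B ≤ normalizer (M : Set S) := by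
    rw [← h.normalizer_eq]
    exact hn Q M hM
  obtain ⟨J, hJ, hMJ⟩ := Cfsg.Agent.S0311.result P _ h1
  rw [hs] at hJ
  rcases Set.subset_singleton_iff_eq.1 hJ with rfl | rfl
  · rw [Cfsg.Agent.Schreier.BNSch.parabolic_empty] at hMJ
    refine ⟨Q, le_rfl, ?_, fun g hg => ⟨1, one_mem _, ?_⟩⟩
    · rw [h.normalizer_eq, ← hMJ]
      exact le_normalizer
    · rw [inv_one, one_mul, mem_norm_iff]
      exact (eq_of_le_of_card_ge hg (card_smul _ _).le).symm
  · have h2 : normalizer (M : Set S) = ⊤ := by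
      rw [hMJ, ← hs, Cfsg.Agent.LieExceptional.BNPairCore.parabolic_S_eq_top]
    have h3 : M.Normal := normalizer_eq_top_iff.1 h2
    rcases h3.eq_bot_or_eq_top with h4 | h4
    · refine ⟨⊥, bot_le, ?_, fun g _ => ⟨1, one_mem _, ?_⟩⟩
      · rw [normalizer_eq_top]; exact le_top
      · have h5 : (Q : Subgroup S) = ⊥ := le_bot_iff.1 (h4 ▸ hM)
        rw [h5, normalizer_eq_top]
        trivial
    · refine ⟨⊥, bot_le, ?_, fun g _ => ⟨g, ?_, ?_⟩⟩
      · rw [normalizer_eq_top]; exact le_top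
      · rw [h4]; trivial
      · rw [inv_mul_cancel]; exact one_mem _

theorem wcm_of_rgdT {G : Type*} [Group G] [Finite G] (hG : HasRGDT p G) (hn : NorLe p G) : WCM p G := by
  obtain ⟨l, M, A, h, T, n, X, hW, R, hX, -, -⟩ := hG
  refine wcm_of_rgd R ?_ hn
  rw [eq_top_iff, ← hX]
  exact le_sup_right

universe u

/-- **Groups of Lie type in odd characteristic.** -/
theorem wcm_of_lie (hp2 : p ≠ 2) {G : Type u} [Group G] [Finite G] [IsSimpleGroup G] (h : IsLieTypeChar p G) :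
    WCM p G := by
  have hn := norLe_of_lie hp.out h
  rcases h with h | h | h | h | h | h | h | h | h | h | h
  · obtain ⟨F, _, _, _, n, hn', -, ⟨e⟩⟩ := h
    obtain ⟨n, rfl⟩ : ∃ k, n = k + 1 := ⟨n - 1, by omega⟩
    exact wcm_of_rgdT ((rgdt_PSL n (by omega)).of_equiv e.symm) hn
  · obtain ⟨F, _, _, _, m, hm, -, ⟨e⟩⟩ := h
    exact wcm_of_rgdT ((rgdt_PSp hm).of_equiv e.symm) hn
  · obtain ⟨F, _, _, _, n, q, hF, hn', -, ⟨e⟩⟩ := h
    exact wcm_of_rgdT ((rgdt_PSU hF hn').of_equiv e.symm) hn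
  · obtain ⟨F, _, _, _, m, hm, hodd, ⟨e⟩⟩ := h
    exact wcm_of_rgdT ((rgdt_PO_odd (H716.SplitAb.two_ne hp2) (by omega)).of_equiv e.symm) hn
  · obtain ⟨F, _, _, _, m, hm, ⟨e⟩⟩ := h
    obtain ⟨n, rfl⟩ : ∃ n, m = n + 4 := ⟨m - 4, by omega⟩
    exact wcm_of_rgdT ((rgdt_PO_plus n).of_equiv e.symm) hn
  · obtain ⟨F, _, _, _, m, a, b, hm, hab, ⟨e⟩⟩ := h
    exact wcm_of_rgdT ((rgdt_PO_minus hab (by omega)).of_equiv e.symm) hn
  · exact wcm_of_rgdT (rgdt_of_exc h) hn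
  · exact wcm_of_rgdT (rgdt_of_tw h) hn
  · exact absurd h.1 hp2
  · exact absurd h.1 hp2
  · obtain ⟨rfl, K, _, _, m, hm, hK, ⟨e⟩⟩ := h
    obtain ⟨U, h, n, D⟩ := Cfsg.Agent.ChevalleyStructure.Ree.Data.exists_data hK
    refine wcm_of_one_node hn (Cfsg.Agent.FixBN.Transport.mapBN e.symm (Cfsg.Agent.FixBN.ReeSplit.bnPair D))
      (Cfsg.Agent.FixBN.Transport.split e.symm _ (Cfsg.Agent.FixBN.ReeSplit.split hK D)) (s := e.symm n) ?_
    show e.symm '' {n} = {e.symm n}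
    exact Set.image_singleton

/-- **Overgroups of Hall subgroups.** -/
theorem dom_over {π : Set ℕ} (hpπ : p ∈ π) (h2 : 2 ∉ π) (hn : NorLe p S) (hw : WCM p S)
    (ho : H565.OddBorel.OddLe p S) (hD : Dom π S) {H M : Subgroup S} (hH : IsPiHall π H) (hHM : H ≤ M) :
    Dom π M := by
  have hHπ : PiN π (Nat.card H) := hH.1
  have hHi : PiN' π H.index := hH.2
  -- a Sylow subgroup in `H`
  obtain ⟨Q⟩ : Nonempty (Sylow p H) := inferInstance
  have h1 : ¬ p ∣ ((Q : Subgroup H).map H.subtype).index := by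
    rw [index_map_subtype]
    intro hd
    rcases hp.out.dvd_mul.1 hd with h | h
    · exact Q.not_dvd_index h
    · exact hHi p hp.out hpπ h
  obtain ⟨U, hU⟩ : ∃ U : Sylow p S, (U : Subgroup S) ≤ H :=
    ⟨(Q.isPGroup'.map H.subtype).toSylow h1, map_subtype_le _⟩
  have hodd : Odd (Nat.card H) := by
    rw [← Nat.not_even_iff_odd, even_iff_two_dvd]
    exact fun hh => h2 (hHπ 2 Nat.prime_two hh)
  have hHU : H ≤ normalizer ((U : Subgroup S) : Set S) := ho U H hU hodd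
  have hNH := hn U H hU
  obtain ⟨V, hVU, hMV, hV⟩ := hw U M (hU.trans hHM)
  refine ⟨H.subgroupOf M, ⟨?_, ?_⟩, ?_⟩
  · have h3 : PiN π (Nat.card (H.subgroupOf M)) := by
      rw [card_subgroupOf _ _ hHM]
      exact hHπ
    exact h3
  · have h3 : PiN' π (H.subgroupOf M).index := by
      refine PiN'.of_dvd hHi ?_
      show H.relIndex M ∣ H.index
      rw [← relIndex_mul_index hHM]
      exact dvd_mul_right _ _
    exact h3
  intro K hK
  set L : Subgroup S := K.map M.subtype with hL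
  have hLM : L ≤ M := map_subtype_le K
  have hLπ : PiN π (Nat.card L) := by
    rw [hL, card_map_of_injective M.subtype_injective]
    exact hK
  have hVp : IsPGroup p V := U.isPGroup'.to_le hVU
  have hLV : PiN π (Nat.card (L ⊔ V : Subgroup S)) := piN_sup (hLM.trans hMV) hLπ (piN_of_isPGroup hpπ hVp)
  obtain ⟨H', hH', hle⟩ := Dom.pi_le hD _ hLV
  obtain ⟨g, hg⟩ := hD.cpi.2 H H' hH hH'
  rw [conj_eq] at hg
  have h3 : V ≤ MulAut.conj g • (U : Subgroup S) := by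
    have h4 : V ≤ MulAut.conj g • H := by
      rw [← hg]
      exact le_sup_right.trans hle
    have h5 := smul_mono_right (MulAut.conj g) hHU
    rw [smul_normalizer] at h5
    have h6 := le_of_sylow (N := ⊤) (V := MulAut.conj g • (U : Subgroup S)) (K := V) (isPGroup_smul g U.isPGroup')
      le_top (by
        rw [relIndex_top_right, ← relIndex_top_right]
        rw [show (⊤ : Subgroup S) = MulAut.conj g • ⊤ from (smul_of_normal g ⊤).symm, relIndex_smul,
          relIndex_top_right]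
        exact U.not_dvd_index) hVp le_top (h4.trans h5)
    exact h6
  obtain ⟨m, hm, hm'⟩ := hV g h3
  have h4 : MulAut.conj g • H = MulAut.conj m • H := by
    have h5 := mem_norm_iff.mp (hNH hm')
    have e : g = m * (m⁻¹ * g) := by group
    rw [e, map_mul, mul_smul, h5]
  refine ⟨⟨m, hm⟩, fun k hk => ?_⟩
  have h5 : (k : S) ∈ MulAut.conj m • H := by
    rw [← h4, ← hg]
    exact hle (mem_sup_left ⟨k, hk, rfl⟩)
  obtain ⟨x, hx, hx'⟩ := (mem_smul_pointwise_iff_exists _ _ _).1 h5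
  refine (mem_smul_pointwise_iff_exists _ _ _).2 ⟨⟨x, hHM hx⟩, hx, Subtype.ext ?_⟩
  exact hx'

/-- **P2 of S3849** -/
theorem dom_over_own {π : Set ℕ} (h2 : 2 ∉ π) {p : ℕ} (hp : p.Prime) (hpπ : p ∈ π) {G : Type u} [Group G] [Finite G]
    [IsSimpleGroup G] (hG : IsLieTypeChar p G) (hD : Dom π G) {H M : Subgroup G} (hH : IsPiHall π H) (hHM : H ≤ M) :
    Dom π M := by
  have := Fact.mk hp
  have hp2 : p ≠ 2 := by
    rintro rfl
    exact h2 hpπ
  exact dom_over hpπ h2 (norLe_of_lie hp hG) (wcm_of_lie hp2 hG) (H565.OddBorel.oddLe_of_lie hp2 hG) hD hH hHM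

end Cfsg.Agent.H537.RV
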