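import Cfsg.Agent.H537.RV.PTwo
import Cfsg.Agent.H571.RM.Pred

/-!
# S3849, piece P2: the row (helper537)
-/

set_option autoImplicit false

namespace Cfsg.Agent.H537.RV

open Cfsg Cfsg.Agent.H571.RM

universe u

/-- own characteristic, `2 ∉ π` -/
theorem her_own {π : Set ℕ} (h2 : 2 ∉ π) {p : ℕ} (hp : p.Prime) (hpπ : p ∈ π) {S : Type u} [Group S] [Finite S]
    [IsSimpleGroup S] (hS : IsLieTypeChar p S) : Her π S :=
  fun hD _ _ hH hHM => dom_over_own h2 hp hpπ hS hD hH hHM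

/-- **P2 of S3849** -/
theorem rowM_own {π : Set ℕ} (h2 : 2 ∉ π) {p : ℕ} (hp : p.Prime) (hpπ : p ∈ π) {S : Type u} [Group S] [Finite S]
    [IsSimpleGroup S] (hS : IsLieTypeChar p S) : RowM π S :=
  fun _ => her_own h2 hp hpπ hS

end Cfsg.Agent.H537.RV
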