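import Cfsg.Agent.H561.RV.Defs
import Cfsg.Agent.H571.DExtB
import Cfsg.Agent.H716.SplitAb
import Cfsg.Agent.Schreier.BNGraph
import Cfsg.Agent.H537.RV.R1Lie

/-!
# TEAM RV, S4311 part (4): Hall `π`-subgroups of groups of Lie type in characteristic `p ∈ π` (helper537)

* `Dich`, `srow_of_dich` : the criterion for `SRow`;
* `NorLe p K` : `N(U)` normalises every overgroup of the Sylow `p`-subgroup `U`; `norLe_of_splitAb`, `norLe_of_lie`;
* `RT adj` : graph automorphisms of odd order are trivial, or of order three with the invariant node sets invariant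
  under all graph automorphisms;
* `HasDg p K` : a (B,N)-pair with `B = N(U)` and diagram with `RT`;
* `srow_of_dg` : `SRow π K` for `p ∈ π`.
-/

set_option autoImplicit false
set_option linter.unusedSectionVars false

namespace Cfsg.Agent.H537.RV

open Subgroup Cfsg Cfsg.Agent.H988.CPi Cfsg.Agent.H571.DExt Cfsg.Agent.H561.RV
open Cfsg.Agent.Schreier.BNSch Cfsg.Agent.Schreier.BNGraph Cfsg.Agent.FixBN
open scoped Pointwise

/-! ### The criterion -/

/-- the dichotomy for automorphisms of odd order -/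
def Dich (π : Set ℕ) (S : Type*) [Group S] : Prop :=
  ∀ φ : MulAut S, Odd (orderOf φ) → (∀ H : Subgroup S, IsPiHall π H → FixC φ H) ∨
    (3 ∣ orderOf φ ∧ ∀ H : Subgroup S, IsPiHall π H → FixC φ H → ∀ ψ : MulAut S, FixC ψ H)

theorem isPiHall_smul {π : Set ℕ} {S : Type*} [Group S] (φ : MulAut S) {H : Subgroup S} (h : IsPiHall π H) :
    IsPiHall π (φ • H) := by
  have h1 : Nat.card (φ • H : Subgroup S) = Nat.card H :=
    Subgroup.card_map_of_injective (f := (φ : S ≃* S).toMonoidHom) φ.injective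
  have h2 : (φ • H : Subgroup S).index = H.index :=
    Subgroup.index_map_of_bijective (f := (φ : S ≃* S).toMonoidHom) φ.bijective H
  refine ⟨?_, ?_⟩
  · intro r hr hd
    rw [h1] at hd
    exact h.1 r hr hd
  · intro r hr hrπ hd
    rw [h2] at hd
    exact h.2 r hr hrπ hd

theorem fixC_conj_smul {S : Type*} [Group S] {φ : MulAut S} {H : Subgroup S} (g : S)
    (h : FixC φ H) : FixC φ (MulAut.conj g • H) := by
  obtain ⟨s, hs⟩ := fixC_iff.1 h
  refine fixC_iff.2 ⟨φ g * s * g⁻¹, ?_⟩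
  rw [smul_conj_smul, hs, ← mul_smul, ← mul_smul, ← map_mul, ← map_mul, inv_mul_cancel_right]

theorem fixC_conj_smul_iff {S : Type*} [Group S] {φ : MulAut S} {H : Subgroup S} (g : S) :
    FixC φ (MulAut.conj g • H) ↔ FixC φ H := by
  refine ⟨fun h => ?_, fixC_conj_smul g⟩
  have h1 := fixC_conj_smul g⁻¹ h
  rwa [← mul_smul, ← map_mul, inv_mul_cancel, map_one, one_smul] at h1

/-- the automorphisms fixing all classes of Hall subgroups form a normal subgroup -/
theorem fixC_normal {π : Set ℕ} {S : Type*} [Group S] {φ : MulAut S}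
    (h : ∀ H : Subgroup S, IsPiHall π H → FixC φ H) (ψ : MulAut S) :
    ∀ H : Subgroup S, IsPiHall π H → FixC (ψ * φ * ψ⁻¹) H := by
  intro H hH
  obtain ⟨s, hs⟩ := fixC_iff.1 (h _ (isPiHall_smul ψ⁻¹ hH))
  refine fixC_iff.2 ⟨ψ s, ?_⟩
  rw [mul_smul, mul_smul, hs, smul_conj_smul, smul_inv_smul]

theorem srow_of_dich {π : Set ℕ} {S : Type*} [Group S] [Finite S] (h : Dich π S) : SRow π S := by
  intro X hX
  have hfin : Finite (MulAut S) := Finite.of_injective (fun f : MulAut S => (f : S → S)) DFunLike.coe_injective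
  have : Fact (Nat.Prime 3) := ⟨Nat.prime_three⟩
  obtain ⟨P⟩ : Nonempty (Sylow 3 X) := inferInstance
  obtain ⟨H, hH, hR⟩ := hX 3 Nat.prime_three ((P : Subgroup X).map X.subtype) (map_subtype_le _)
    (P.isPGroup'.map _)
  have hodd : ∀ x ∈ P, Odd (orderOf (x : MulAut S)) := by
    intro x hx
    obtain ⟨n, hn⟩ := P.isPGroup'.exists_card_eq
    have h3 : orderOf x ∣ 3 ^ n := by
      rw [← hn, ← Subgroup.orderOf_mk x hx]
      exact orderOf_dvd_natCard _
    rw [← Subgroup.orderOf_coe] at h3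
    exact Odd.of_dvd_nat ((by decide : Odd 3).pow) h3
  by_cases hc : ∀ x ∈ P, ∀ H : Subgroup S, IsPiHall π H → FixC (x : MulAut S) H
  · -- all elements of order a power of three act trivially
    obtain ⟨Q⟩ : Nonempty (Sylow 2 X) := inferInstance
    obtain ⟨H', hH', hR'⟩ := hX 2 Nat.prime_two ((Q : Subgroup X).map X.subtype) (map_subtype_le _)
      (Q.isPGroup'.map _)
    refine ⟨H', hH', ?_⟩
    have h1 : ((fixer H').subgroupOf X).index = 1 := by
      by_contra hne
      obtain ⟨r, hr, hd⟩ := Nat.exists_prime_and_dvd hne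
      have : Fact r.Prime := ⟨hr⟩
      have h2 : ∃ R : Sylow r X, (R : Subgroup X) ≤ (fixer H').subgroupOf X := by
        by_cases h2 : r = 2
        · subst h2
          exact ⟨Q, fun x hx => hR' _ ⟨x, hx, rfl⟩⟩
        by_cases h3 : r = 3
        · subst h3
          exact ⟨P, fun x hx => hc x hx H' hH'⟩
        refine ⟨default, fun x hx => ?_⟩
        obtain ⟨n, hn⟩ := (default : Sylow r X).isPGroup'.exists_card_eq
        have h4 : orderOf (x : MulAut S) ∣ r ^ n := by
          rw [← hn, Subgroup.orderOf_coe, ← Subgroup.orderOf_mk x hx]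
          exact orderOf_dvd_natCard _
        rcases h (x : MulAut S) (Odd.of_dvd_nat ((hr.odd_of_ne_two h2).pow) h4) with h5 | ⟨h5, -⟩
        · exact h5 H' hH'
        · exact absurd ((Nat.prime_dvd_prime_iff_eq Nat.prime_three hr).1
            (Nat.prime_three.dvd_of_dvd_pow (h5.trans h4))).symm h3
      obtain ⟨R, hR⟩ := h2
      exact R.not_dvd_index (hd.trans (index_dvd_of_le hR))
    intro x hx
    have h2 := Subgroup.index_eq_one.1 h1
    have h3 : (⟨x, hx⟩ : X) ∈ (fixer H').subgroupOf X := by rw [h2]; trivial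
    exact h3
  · push Not at hc
    obtain ⟨x, hx, H', hH', hn⟩ := hc
    rcases h (x : MulAut S) (hodd x hx) with h1 | ⟨-, h1⟩
    · exact absurd (h1 H' hH') hn
    · exact ⟨H, hH, fun ψ _ => h1 H hH (hR _ ⟨x, hx, rfl⟩) ψ⟩

/-! ### Overgroups of the Sylow subgroup -/

/-- `N(U)` normalises every overgroup of the Sylow `p`-subgroup `U`. -/
def NorLe (p : ℕ) (K : Type*) [Group K] : Prop :=
  ∀ U : Sylow p K, ∀ H : Subgroup K, (U : Subgroup K) ≤ H →
    normalizer ((U : Subgroup K) : Set K) ≤ normalizer (H : Set K)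

section nor

variable {K : Type*} [Group K] [Finite K] {p : ℕ} [hp : Fact p.Prime]

theorem smul_sylow_coe (g : K) (U : Sylow p K) : ((g • U : Sylow p K) : Subgroup K) = MulAut.conj g • (U : Subgroup K) := rfl

/-- conjugacy in an overgroup of two Sylow subgroups -/
theorem exists_conj_of_le {U : Sylow p K} {M : Subgroup K} (h1 : (U : Subgroup K) ≤ M) {g : K}
    (h2 : MulAut.conj g • (U : Subgroup K) ≤ M) :
    ∃ k ∈ M, k⁻¹ * g ∈ normalizer ((U : Subgroup K) : Set K) := by
  have hle : ((g • U : Sylow p K) : Subgroup K) ≤ M := h2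
  obtain ⟨k, hk⟩ := MulAction.exists_smul_eq M (U.subtype h1) ((g • U).subtype hle)
  refine ⟨k, k.2, ?_⟩
  have hk' : (k : K) • U = g • U := by
    have h3 := congrArg (fun P : Sylow p M => (P : Subgroup M).map M.subtype) hk
    apply Sylow.ext
    have h4 : (((k • U.subtype h1 : Sylow p M) : Subgroup M)).map M.subtype =
        (((k : K) • U : Sylow p K) : Subgroup K) := by
      rw [Sylow.coe_subgroup_smul, Sylow.coe_subgroup_smul]
      ext y
      constructor
      · rintro ⟨z, hz, rfl⟩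
        obtain ⟨s, hs, rfl⟩ := (Subgroup.mem_smul_pointwise_iff_exists _ _ _).1 hz
        exact (Subgroup.mem_smul_pointwise_iff_exists _ _ _).2 ⟨s, hs, rfl⟩
      · intro hy
        obtain ⟨s, hs, rfl⟩ := (Subgroup.mem_smul_pointwise_iff_exists _ _ _).1 hy
        refine ⟨MulAut.conj k ⟨s, h1 hs⟩, ?_, rfl⟩
        exact (Subgroup.mem_smul_pointwise_iff_exists _ _ _).2 ⟨⟨s, h1 hs⟩, hs, rfl⟩
    have h5 : ((((g • U).subtype hle : Sylow p M) : Subgroup M)).map M.subtype =
        ((g • U : Sylow p K) : Subgroup K) := by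
      rw [Sylow.coe_subtype, Subgroup.subgroupOf_map_subtype, inf_eq_left]
      exact hle
    rw [← h4, ← h5]
    exact h3
  exact Sylow.smul_eq_iff_mem_normalizer.1 (by rw [mul_smul, ← hk', inv_smul_smul])

/-- **A split (B,N)-pair with `B / U` abelian**: `B` normalises the overgroups of `U`. -/
theorem norm_of_bn (P : Cfsg.BNPair K) (U : Sylow p K) (hN : normalizer ((U : Subgroup K) : Set K) = P.B)
    (hcov : ∀ b ∈ P.B, ∃ u ∈ (U : Subgroup K), ∃ t ∈ P.B ⊓ P.N, b = u * t)
    (hab : ∀ x ∈ P.B, ∀ y ∈ P.B, x * y * x⁻¹ * y⁻¹ ∈ (U : Subgroup K)) {H : Subgroup K}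
    (hH : (U : Subgroup K) ≤ H) : P.B ≤ normalizer (H : Set K) := by
  have hUB : (U : Subgroup K) ≤ P.B := by rw [← hN]; exact le_normalizer
  have hBU : ∀ b ∈ P.B, ∀ x ∈ (U : Subgroup K), b * x * b⁻¹ ∈ (U : Subgroup K) := by
    intro b hb x hx
    rw [← hN] at hb
    exact (mem_normalizer_iff.1 hb x).1 hx
  have hBn := hBU
  -- `U n B`
  have hdec : ∀ g : K, ∃ a ∈ (U : Subgroup K), ∃ n ∈ P.N, ∃ b ∈ (U : Subgroup K), g = a * n * b := by
    intro g
    obtain ⟨n, hn, hg⟩ := Cfsg.Agent.LieExceptional.BNPairCore.bruhat (P := P) g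
    obtain ⟨x, hx, y, hy, rfl⟩ := Cfsg.Agent.LieExceptional.BNPairCore.mem_C.1 hg
    obtain ⟨u, hu, t, ht, rfl⟩ := hcov x hx
    obtain ⟨v, hv, s, hs, rfl⟩ := hcov y hy
    refine ⟨u, hu, t * n * s, P.N.mul_mem (P.N.mul_mem ht.2 hn) hs.2, s⁻¹ * v * s, ?_, by group⟩
    have h1 := hBU s⁻¹ (inv_mem hs.1) v hv
    rwa [inv_inv] at h1
  -- the torus normalises `H`
  have key : ∀ t ∈ P.B ⊓ P.N, ∀ x ∈ H, t * x * t⁻¹ ∈ H := by
    intro t ht x hx
    obtain ⟨a, ha, n, hn, b, hb, hx'⟩ := hdec x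
    obtain ⟨L, hL⟩ : ∃ L : Subgroup K, L = (U : Subgroup K) ⊔ MulAut.conj n • (U : Subgroup K) := ⟨_, rfl⟩
    have hUL : (U : Subgroup K) ≤ L := by rw [hL]; exact le_sup_left
    have hnU : ∀ s ∈ (U : Subgroup K), n * s * n⁻¹ ∈ L := fun s hs => by
      rw [hL]; exact mem_sup_right ⟨s, hs, rfl⟩
    have hxU : MulAut.conj x • (U : Subgroup K) ≤ L := by
      rintro _ ⟨s, hs, rfl⟩
      have h1 : n * (b * s * b⁻¹) * n⁻¹ ∈ L := hnU _ (mul_mem (mul_mem hb hs) (inv_mem hb))
      have h2 := mul_mem (mul_mem (hUL ha) h1) (inv_mem (hUL ha))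
      show x * s * x⁻¹ ∈ L
      rw [hx']
      convert h2 using 1
      group
    have hLH : L ≤ H := by
      have hn' : n = a⁻¹ * x * b⁻¹ := by rw [hx']; group
      have hnH : n ∈ H := by
        rw [hn']
        exact mul_mem (mul_mem (inv_mem (hH ha)) hx) (inv_mem (hH hb))
      rw [hL]
      refine sup_le hH ?_
      rintro _ ⟨s, hs, rfl⟩
      exact mul_mem (mul_mem hnH (hH hs)) (inv_mem hnH)
    have htL : L ≤ L.comap (MulAut.conj t).toMonoidHom := by
      conv_lhs => rw [hL]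
      refine sup_le (fun s hs => hUL (hBU t ht.1 s hs)) ?_
      rintro _ ⟨s, hs, rfl⟩
      have h0 : n⁻¹ * t * n ∈ P.B := Cfsg.Agent.LieExceptional.BNPairCore.conj_mem_inv hn ht.1 ht.2
      have h1 := hnU _ (hBU _ h0 s hs)
      show t * (n * s * n⁻¹) * t⁻¹ ∈ L
      convert h1 using 1
      group
    obtain ⟨k, hk, hk2⟩ := exists_conj_of_le hUL hxU
    rw [hN] at hk2
    have hyH : k⁻¹ * x ∈ H := mul_mem (inv_mem (hLH hk)) hx
    have h4 : t * k * t⁻¹ ∈ H := hLH (htL hk)
    have h5 : t * (k⁻¹ * x) * t⁻¹ * (k⁻¹ * x)⁻¹ ∈ H := hH (hab t ht.1 _ hk2)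
    have e : t * x * t⁻¹ = (t * k * t⁻¹) * ((t * (k⁻¹ * x) * t⁻¹ * (k⁻¹ * x)⁻¹) * (k⁻¹ * x)) := by group
    rw [e]
    exact mul_mem h4 (mul_mem h5 hyH)
  rw [le_normalizer_iff]
  intro b hb x hx
  obtain ⟨u, hu, t, ht, rfl⟩ := hcov b hb
  have h1 := mul_mem (mul_mem (hH hu) (key t ht x hx)) (inv_mem (hH hu))
  have e : u * t * x * (u * t)⁻¹ = u * (t * x * t⁻¹) * u⁻¹ := by group
  rw [e]
  exact h1

theorem norLe_of_one (U : Sylow p K)
    (h : ∀ H : Subgroup K, (U : Subgroup K) ≤ H → normalizer ((U : Subgroup K) : Set K) ≤ normalizer (H : Set K)) :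
    NorLe p K := by
  intro V H hVH
  obtain ⟨g, hg⟩ := MulAction.exists_smul_eq K U V
  have hg' : (V : Subgroup K) = MulAut.conj g • (U : Subgroup K) := by rw [← hg]; rfl
  have h1 : (U : Subgroup K) ≤ MulAut.conj g⁻¹ • H := by
    intro x hx
    rw [mem_pointwise_smul_iff_inv_smul_mem, map_inv, inv_inv]
    apply hVH
    rw [hg']
    exact smul_mem_pointwise_smul x _ _ hx
  have h2 := smul_mono_right (MulAut.conj g) (h _ h1)
  rw [smul_normalizer, smul_normalizer, ← mul_smul, ← map_mul, mul_inv_cancel, map_one, one_smul, ← hg'] at h2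
  exact h2

theorem norLe_of_splitAb [IsSimpleGroup K] (h : Cfsg.Agent.Omega.ML.LieRow.CRB.HasSplitAb p K) : NorLe p K := by
  obtain ⟨P, U, hne, h, hc⟩ := h
  obtain ⟨Q, hQ⟩ := h.isP.exists_le_sylow
  have hQU : (Q : Subgroup K) = U := H794.DefClosed.eq_of_isPGroup h Q.isPGroup' hQ
  subst hQU
  refine norLe_of_one Q fun H hH => ?_
  rw [h.normalizer_eq]
  exact norm_of_bn P Q h.normalizer_eq (fun b hb => h.cover' hb) hc hH

/-- **Groups of Lie type.** -/
theorem norLe_of_lie {K : Type*} [Group K] [Finite K] {p : ℕ} (hp : p.Prime) [IsSimpleGroup K]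
    (h : IsLieTypeChar p K) : NorLe p K := by
  have := Fact.mk hp
  exact norLe_of_splitAb (H716.SplitAb.hasSplitAb_of_lie hp h)

end nor

/-! ### The diagram -/

/-- graph automorphisms -/
def IsGA {l : ℕ} (adj : Fin l → Fin l → Prop) (σ : Equiv.Perm (Fin l)) : Prop := ∀ i j, adj (σ i) (σ j) ↔ adj i j

/-- graph automorphisms of odd order are trivial, or of order three, and the node sets they fix are fixed by all graph
automorphisms -/
def RT {l : ℕ} (adj : Fin l → Fin l → Prop) : Prop :=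
  ∀ σ : Equiv.Perm (Fin l), IsGA adj σ → Odd (orderOf σ) → σ = 1 ∨
    (orderOf σ = 3 ∧ ∀ J : Set (Fin l), σ '' J = J → ∀ τ : Equiv.Perm (Fin l), IsGA adj τ → τ '' J = J)

/-- a (B,N)-pair with `B = N(U)`, `U` a Sylow `p`-subgroup, and diagram with `RT` -/
def HasDg (p : ℕ) (K : Type*) [Group K] : Prop :=
  ∃ (P : Cfsg.BNPair K) (U : Sylow p K) (l : ℕ) (s : Fin l → K),
    normalizer ((U : Subgroup K) : Set K) = P.B ∧ Set.range s = P.S ∧ Function.Injective s ∧
      RT (fun i j => i ≠ j ∧ s i * s j * (s i)⁻¹ * (s j)⁻¹ ∉ P.B)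

section dg

variable {K : Type*} [Group K]

theorem parabolic_eq_sup (P : Cfsg.BNPair K) {l : ℕ} (s : Fin l → K) (J : Set (Fin l)) :
    P.parabolic (s '' J) = P.B ⊔ ⨆ i ∈ J, P.parabolic {s i} := by
  apply le_antisymm
  · refine sup_le le_sup_left ((closure_le _).2 ?_)
    rintro _ ⟨i, hi, rfl⟩
    exact (le_sup_right : _ ≤ P.B ⊔ ⨆ i ∈ J, P.parabolic {s i})
      ((le_iSup₂ (f := fun i (_ : i ∈ J) => P.parabolic {s i}) i hi) (mem_parabolic_self P (s i)))
  · refine sup_le (B_le_parabolic P _) (iSup₂_le fun i hi => ?_)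
    exact parabolic_mono P (Set.singleton_subset_iff.2 ⟨i, hi, rfl⟩)

theorem smul_parabolic (P : Cfsg.BNPair K) {l : ℕ} (s : Fin l → K) {φ : MulAut K} (hφ : φ • P.B = P.B)
    {σ : Equiv.Perm (Fin l)} (hσ : ∀ i, (P.parabolic {s i}).map φ.toMonoidHom = P.parabolic {s (σ i)})
    (J : Set (Fin l)) : φ • P.parabolic (s '' J) = P.parabolic (s '' (σ '' J)) := by
  rw [parabolic_eq_sup, parabolic_eq_sup]
  have h1 : φ • (P.B ⊔ ⨆ i ∈ J, P.parabolic {s i}) = φ • P.B ⊔ ⨆ i ∈ J, (P.parabolic {s i}).map φ.toMonoidHom := by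
    show Subgroup.map φ.toMonoidHom _ = Subgroup.map φ.toMonoidHom _ ⊔ _
    rw [Subgroup.map_sup, Subgroup.map_iSup]
    congr 1
    refine iSup_congr fun i => ?_
    rw [Subgroup.map_iSup]
  rw [h1, hφ]
  congr 1
  apply le_antisymm
  · refine iSup₂_le fun i hi => ?_
    rw [hσ]
    exact le_iSup₂ (f := fun i (_ : i ∈ σ '' J) => P.parabolic {s i}) (σ i) ⟨i, hi, rfl⟩
  · refine iSup₂_le ?_
    rintro _ ⟨i, hi, rfl⟩
    rw [← hσ]
    exact le_iSup₂ (f := fun i (_ : i ∈ J) => (P.parabolic {s i}).map φ.toMonoidHom) i hi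

variable [Finite K] {p : ℕ} [hp : Fact p.Prime]

/-- overgroups of `N(U)` which are conjugate are equal -/
theorem smul_eq_of_le {U : Sylow p K} {M : Subgroup K} (h1 : normalizer ((U : Subgroup K) : Set K) ≤ M) {g : K}
    (h2 : normalizer ((U : Subgroup K) : Set K) ≤ MulAut.conj g • M) : MulAut.conj g • M = M := by
  have h3 : (U : Subgroup K) ≤ MulAut.conj g • M := le_normalizer.trans h2
  have h4 : MulAut.conj g • (U : Subgroup K) ≤ MulAut.conj g • M := smul_mono_right _ (le_normalizer.trans h1)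
  obtain ⟨k, hk, hk'⟩ := exists_conj_of_le h3 h4
  have h5 : g ∈ MulAut.conj g • M := by
    have h6 := mul_mem hk (h2 hk')
    rwa [mul_inv_cancel_left] at h6
  rw [mem_pointwise_smul_iff_inv_smul_mem] at h5
  have h6 : ((MulAut.conj g)⁻¹ • g : K) = g := by
    rw [← map_inv]; simp [MulAut.smul_def]
  rw [h6] at h5
  exact mem_norm_iff.mp (le_normalizer h5)

/-- every automorphism can be corrected by an inner one to preserve `U` -/
theorem exists_correct (U : Sylow p K) (φ : MulAut K) :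
    ∃ s : K, (MulAut.conj s * φ) • (U : Subgroup K) = (U : Subgroup K) := by
  have h1 : IsPGroup p (φ • (U : Subgroup K) : Subgroup K) := U.isPGroup'.map _
  have h2 : ¬ p ∣ (φ • (U : Subgroup K) : Subgroup K).index := by
    have h3 : (φ • (U : Subgroup K) : Subgroup K).index = (U : Subgroup K).index :=
      Subgroup.index_map_of_bijective (f := (φ : K ≃* K).toMonoidHom) φ.bijective _
    rw [h3]
    exact U.not_dvd_index
  obtain ⟨s, hs⟩ := MulAction.exists_smul_eq K (h1.toSylow h2) U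
  refine ⟨s, ?_⟩
  rw [mul_smul]
  exact congrArg (fun V : Sylow p K => (V : Subgroup K)) hs

theorem smul_normalizer' (φ : MulAut K) (H : Subgroup K) :
    φ • normalizer (H : Set K) = normalizer ((φ • H : Subgroup K) : Set K) :=
  Subgroup.map_equiv_normalizer_eq H φ

/-- a Hall subgroup is determined by its normaliser (inside overgroups of `N(U)`) -/
theorem smul_eq_of_norm {π : Set ℕ} {H : Subgroup K} (hH : IsPiHall π H) {φ : MulAut K}
    (hM : φ • normalizer (H : Set K) = normalizer (H : Set K)) : φ • H = H := by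
  have h1 : IsPiHall π (φ • H) := isPiHall_smul φ hH
  have h2 : (φ • H : Subgroup K) ≤ normalizer (H : Set K) := by
    rw [← hM]
    exact smul_mono_right _ le_normalizer
  have h3 : PiN π (Nat.card (φ • H ⊔ H : Subgroup K)) := piN_sup h2 h1.1 hH.1
  have h4 : H.relIndex (φ • H ⊔ H) = 1 := by
    refine eq_one_of_both (π := π) (h3.of_dvd (relIndex_dvd_card _ _)) ?_
    have h5 : PiN' π H.index := hH.2
    refine PiN'.of_dvd h5 ?_
    rw [← relIndex_mul_index (le_sup_right : H ≤ φ • H ⊔ H)]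
    exact dvd_mul_right _ _
  have h5 : φ • H ≤ H := le_sup_left.trans (relIndex_eq_one.mp h4)
  exact eq_of_le_of_card_ge h5 (Subgroup.card_map_of_injective (f := (φ : K ≃* K).toMonoidHom) φ.injective).ge

theorem fixC_of_correct {φ : MulAut K} {s : K} {H : Subgroup K} (h : FixC (MulAut.conj s * φ) H) : FixC φ H := by
  have h1 : φ = MulAut.conj s⁻¹ * (MulAut.conj s * φ) := by
    rw [← mul_assoc, ← map_mul, inv_mul_cancel, map_one, one_mul]
  rw [h1]
  exact FixC.mul (FixC.conj _ _) h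

/-- **The dichotomy.** -/
theorem dich_of_dg {π : Set ℕ} (hpπ : p ∈ π) (hn : NorLe p K) (h : HasDg p K) : Dich π K := by
  obtain ⟨P, U, l, s, hB, hs, hinj, hRT⟩ := h
  set adj : Fin l → Fin l → Prop := fun i j => i ≠ j ∧ s i * s j * (s i)⁻¹ * (s j)⁻¹ ∉ P.B with hadj
  have hsS : ∀ J : Set (Fin l), s '' J ⊆ P.S := by
    rintro J _ ⟨i, -, rfl⟩
    rw [← hs]
    exact ⟨i, rfl⟩
  -- the permutation
  have hperm : ∀ φ : MulAut K, φ • (U : Subgroup K) = (U : Subgroup K) → φ • P.B = P.B ∧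
      ∃ σ : Equiv.Perm (Fin l), IsGA adj σ ∧ (∀ i, (P.parabolic {s i}).map φ.toMonoidHom = P.parabolic {s (σ i)}) ∧
        ∀ J : Set (Fin l), φ • P.parabolic (s '' J) = P.parabolic (s '' (σ '' J)) := by
    intro φ hφ
    have h1 : φ • P.B = P.B := by rw [← hB, smul_normalizer', hφ]
    obtain ⟨σ, hσ, hσ'⟩ := exists_perm P s hs hinj adj (fun i h => h.1 rfl)
      (fun i j hij => ⟨fun h => h.2, fun h => ⟨hij, h⟩⟩) φ h1
    exact ⟨h1, σ, hσ', hσ, smul_parabolic P s h1 hσ⟩
  have hpinj : ∀ J J' : Set (Fin l), P.parabolic (s '' J) = P.parabolic (s '' J') → J = J' := by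
    intro J J' h
    have h1 := (parabolic_le_iff P (hsS J) (hsS J')).1 h.le
    have h2 := (parabolic_le_iff P (hsS J') (hsS J)).1 h.ge
    exact hinj.image_injective (h1.antisymm h2)
  have hover : ∀ M : Subgroup K, P.B ≤ M → ∃ J : Set (Fin l), M = P.parabolic (s '' J) := by
    intro M hM
    obtain ⟨J, hJ, hMJ⟩ := Cfsg.Agent.S0311.result P M hM
    refine ⟨s ⁻¹' J, ?_⟩
    rw [hMJ, Set.image_preimage_eq_of_subset (by rw [hs]; exact hJ)]
  -- Hall subgroups over `U`
  have hallU : ∀ H : Subgroup K, IsPiHall π H → ∃ g : K, (U : Subgroup K) ≤ MulAut.conj g • H := by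
    intro H hH
    obtain ⟨Q⟩ : Nonempty (Sylow p H) := inferInstance
    have h1 : ¬ p ∣ ((Q : Subgroup H).map H.subtype).index := by
      rw [index_map_subtype]
      intro hd
      rcases hp.out.dvd_mul.1 hd with h | h
      · exact Q.not_dvd_index h
      · exact hH.2 p hp.out hpπ h
    obtain ⟨g, hg⟩ := MulAction.exists_smul_eq K ((Q.isPGroup'.map H.subtype).toSylow h1) U
    refine ⟨g, ?_⟩
    rw [← hg]
    exact smul_mono_right _ (map_subtype_le _)
  intro φ hφ
  obtain ⟨t, ht⟩ := exists_correct U φ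
  obtain ⟨hφB, σ, hσ, hσ1, hσJ⟩ := hperm _ ht
  set φ' : MulAut K := MulAut.conj t * φ with hφ'
  -- the order of `σ`
  have hpow : ∀ k : ℕ, ∀ i : Fin l, φ' ^ k • P.parabolic {s i} = P.parabolic {s ((σ ^ k) i)} := by
    intro k
    induction k with
    | zero => intro i; simp
    | succ k ih =>
      intro i
      rw [pow_succ, mul_smul, pow_succ, Equiv.Perm.mul_apply, ← ih (σ i), ← hσ1 i]
      rfl
  have hord : orderOf σ ∣ orderOf φ := by
    rw [orderOf_dvd_iff_pow_eq_one]
    obtain ⟨r, hr⟩ := conj_mul_pow t φ (orderOf φ)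
    rw [pow_orderOf_eq_one, mul_one] at hr
    have h1 : φ' ^ orderOf φ • (U : Subgroup K) = (U : Subgroup K) := by
      have h2 : ∀ k : ℕ, φ' ^ k • (U : Subgroup K) = (U : Subgroup K) := by
        intro k
        induction k with
        | zero => simp
        | succ k ih => rw [pow_succ, mul_smul, ht, ih]
      exact h2 _
    have h2 : r ∈ P.B := by
      rw [← hB, mem_norm_iff, ← hr]
      exact h1
    ext i
    rw [Equiv.Perm.one_apply]
    congr 1
    have h3 := hpow (orderOf φ) i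
    rw [hr, mem_norm_iff.mp (le_normalizer (B_le_parabolic P {s i} h2))] at h3
    have h4 : P.parabolic (s '' {i}) = P.parabolic (s '' {(σ ^ orderOf φ) i}) := by
      rw [Set.image_singleton, Set.image_singleton]
      exact h3
    have h5 := hpinj _ _ h4
    exact (Set.singleton_eq_singleton_iff.1 h5).symm
  rcases hRT σ hσ (Odd.of_dvd_nat hφ hord) with h1 | ⟨h3, hJ⟩
  · left
    intro H hH
    obtain ⟨g, hg⟩ := hallU H hH
    rw [← fixC_conj_smul_iff g]
    have hH' : IsPiHall π (MulAut.conj g • H) := isPiHall_smul _ hH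
    apply fixC_of_correct (s := t)
    have h2 : P.B ≤ normalizer ((MulAut.conj g • H : Subgroup K) : Set K) := by
      rw [← hB]
      exact hn U _ hg
    obtain ⟨J, hMJ⟩ := hover _ h2
    have h4 : φ' • (MulAut.conj g • H) = MulAut.conj g • H := by
      apply smul_eq_of_norm hH'
      rw [hMJ, hσJ, h1]
      simp
    refine fixC_iff.2 ⟨1, ?_⟩
    rw [h4, map_one, one_smul]
  · right
    refine ⟨h3 ▸ hord, fun H hH hfix ψ => ?_⟩
    obtain ⟨g, hg⟩ := hallU H hH
    rw [← fixC_conj_smul_iff g] at hfix ⊢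
    have hH' : IsPiHall π (MulAut.conj g • H) := isPiHall_smul _ hH
    set L : Subgroup K := MulAut.conj g • H with hL
    have h2 : P.B ≤ normalizer (L : Set K) := by
      rw [← hB]
      exact hn U _ hg
    obtain ⟨J, hMJ⟩ := hover _ h2
    -- `φ'` fixes the normaliser
    obtain ⟨a, ha⟩ := fixC_iff.1 (FixC.mul (FixC.conj t L) hfix)
    have h4 : φ' • normalizer (L : Set K) = MulAut.conj a • normalizer (L : Set K) := by
      rw [smul_normalizer', smul_normalizer', hφ', ha]
    have h5 : φ' • normalizer (L : Set K) = normalizer (L : Set K) := by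
      rw [h4]
      refine smul_eq_of_le (U := U) (by rw [hB]; exact h2) ?_
      rw [← h4, hB, ← hφB]
      exact smul_mono_right _ h2
    have h6 : σ '' J = J := by
      apply hpinj
      rw [← hσJ, ← hMJ, h5]
    -- the other automorphism
    obtain ⟨b, hb⟩ := exists_correct U ψ
    obtain ⟨-, τ, hτ, -, hτJ⟩ := hperm _ hb
    apply fixC_of_correct (s := b)
    have h7 : (MulAut.conj b * ψ) • L = L := by
      apply smul_eq_of_norm hH'
      rw [hMJ, hτJ, hJ J h6 τ hτ]
    refine fixC_iff.2 ⟨1, ?_⟩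
    rw [h7, map_one, one_smul]

/-- **`SRow` for `p ∈ π`** -/
theorem srow_of_dg {π : Set ℕ} (hpπ : p ∈ π) (hn : NorLe p K) (h : HasDg p K) : SRow π K :=
  srow_of_dich (dich_of_dg hpπ hn h)

end dg

end Cfsg.Agent.H537.RV
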