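import Cfsg.Agent.H537.RV.SRowAbs
import Cfsg.Agent.H520.Diag

/-!
# TEAM RV, S4311 part (4): the diagrams (helper537)

* `RT` for paths, `D_n`, `E₆`, `E₇`, `E₈` and all diagrams with at most two nodes.
-/

set_option autoImplicit false

namespace Cfsg.Agent.H537.RV

open Cfsg.Agent.H566 Cfsg.Agent

/-- the graph of a Coxeter matrix -/
def MAdj {l : ℕ} (M : CoxeterMatrix (Fin l)) (i j : Fin l) : Prop := i ≠ j ∧ M i j ≠ 2

instance {l : ℕ} (M : CoxeterMatrix (Fin l)) (i j : Fin l) : Decidable (MAdj M i j) :=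
  inferInstanceAs (Decidable (i ≠ j ∧ M i j ≠ 2))

theorem fix_of_card_le_two {α : Type*} [DecidableEq α] [Finite α] {σ : Equiv.Perm α} (hσ : Odd (orderOf σ))
    (T : Finset α) (hT : T.card ≤ 2) (h : ∀ k ∈ T, σ k ∈ T) {i : α} (hi : i ∈ T) : σ i = i := by
  by_contra hne
  have h1 : σ (σ i) = i := by
    by_contra h2
    have h3 : σ (σ i) ≠ σ i := fun e => hne (σ.injective e)
    have h4 : ({i, σ i, σ (σ i)} : Finset α) ⊆ T := by
      intro x hx
      simp only [Finset.mem_insert, Finset.mem_singleton] at hx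
      rcases hx with rfl | rfl | rfl
      · exact hi
      · exact h _ hi
      · exact h _ (h _ hi)
    have h5 := Finset.card_le_card h4
    rw [Finset.card_insert_of_notMem, Finset.card_pair (Ne.symm h3)] at h5
    · omega
    · simp only [Finset.mem_insert, Finset.mem_singleton]
      rintro (e | e)
      · exact hne e.symm
      · exact h2 e.symm
  obtain ⟨k, hk⟩ := hσ
  have h2 : ∀ m : ℕ, (σ ^ (2 * m)) i = i := by
    intro m
    induction m with
    | zero => simp
    | succ m ih =>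
      have : 2 * (m + 1) = 2 * m + 1 + 1 := by ring
      rw [this, pow_succ, pow_succ, Equiv.Perm.mul_apply, Equiv.Perm.mul_apply, h1, ih]
  have h3 : (σ ^ orderOf σ) i = i := by rw [pow_orderOf_eq_one]; rfl
  rw [hk, pow_succ', Equiv.Perm.mul_apply, h2] at h3
  exact hne h3

theorem val_eq_of_isGA {l : ℕ} {M : CoxeterMatrix (Fin l)} {σ : Equiv.Perm (Fin l)} (hσ : IsGA (MAdj M) σ)
    (i : Fin l) : val M (σ i) = val M i := by
  symm
  apply Finset.card_bij (fun j _ => σ j)
  · intro j hj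
    rw [Finset.mem_filter] at hj ⊢
    exact ⟨Finset.mem_univ _, (hσ i j).2 hj.2⟩
  · intro a _ b _ h
    exact σ.injective h
  · intro j hj
    rw [Finset.mem_filter] at hj
    refine ⟨σ.symm j, ?_, by simp⟩
    rw [Finset.mem_filter]
    refine ⟨Finset.mem_univ _, (hσ i _).1 ?_⟩
    rw [Equiv.apply_symm_apply]
    exact hj.2

/-- The condition on the diagram. -/
def GO {l : ℕ} (M : CoxeterMatrix (Fin l)) : Prop :=
  ∃ v : ℕ, (Finset.univ.filter fun k => val M k = v).card ≤ 2 ∧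
    ∃ rk : Fin l → ℕ, ∀ i, val M i = v ∨ ∃ j, MAdj M j i ∧ rk j < rk i ∧
      (Finset.univ.filter fun k => MAdj M j k ∧ rk i ≤ rk k ∧ val M k = val M i).card ≤ 2

theorem rt_of_go {l : ℕ} {M : CoxeterMatrix (Fin l)} (h : GO M) : RT (MAdj M) := by
  intro σ hσ hodd
  left
  obtain ⟨v, hv, rk, hrk⟩ := h
  have hmain : ∀ n i, rk i = n → σ i = i := by
    intro n
    induction n using Nat.strong_induction_on with
    | _ n ih =>
      intro i hi
      rcases hrk i with h | ⟨j, hj, hji, hc⟩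
      · refine fix_of_card_le_two hodd _ hv ?_ (Finset.mem_filter.2 ⟨Finset.mem_univ _, h⟩)
        intro k hk
        rw [Finset.mem_filter] at hk ⊢
        exact ⟨Finset.mem_univ _, by rw [val_eq_of_isGA hσ]; exact hk.2⟩
      · have hjj := ih (rk j) (hi ▸ hji) j rfl
        refine fix_of_card_le_two hodd _ hc ?_ (Finset.mem_filter.2 ⟨Finset.mem_univ _, hj, le_rfl, rfl⟩)
        intro k hk
        rw [Finset.mem_filter] at hk ⊢
        refine ⟨Finset.mem_univ _, ?_, ?_, ?_⟩
        · have := (hσ j k).2 hk.2.1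
          rwa [hjj] at this
        · by_contra hlt
          push Not at hlt
          have h1 := ih (rk (σ k)) (by omega) (σ k) rfl
          have h2 : σ k = k := σ.injective h1
          rw [h2] at hlt
          omega
        · rw [val_eq_of_isGA hσ]
          exact hk.2.2.2
  ext i
  rw [hmain _ i rfl]
  rfl

/-- paths -/
theorem go_path {l : ℕ} (M : CoxeterMatrix (Fin l)) (hl : 0 < l)
    (hM : ∀ i j : Fin l, i ≠ j → (M i j ≠ 2 ↔ (i : ℕ) + 1 = j ∨ (j : ℕ) + 1 = i)) : GO M := by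
  refine ⟨val M ⟨0, hl⟩, card_val_path M hl hM, fun i => i, ?_⟩
  intro i
  by_cases hi : (i : ℕ) = 0
  · left
    congr 1
    exact Fin.ext hi
  · right
    have hne : (⟨(i : ℕ) - 1, by omega⟩ : Fin l) ≠ i := fun e => by
      have := congrArg Fin.val e
      simp only at this
      omega
    refine ⟨⟨(i : ℕ) - 1, by omega⟩, ⟨hne, (hM _ _ hne).2 (Or.inl (by simp only; omega))⟩, by simp only; omega, ?_⟩
    have h1 : (Finset.univ.filter fun k : Fin l => MAdj M ⟨(i : ℕ) - 1, by omega⟩ k ∧ (i : ℕ) ≤ (k : ℕ) ∧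
        val M k = val M i) ⊆ {i} := by
      intro k hk
      rw [Finset.mem_filter] at hk
      rw [Finset.mem_singleton]
      have h2 := (hM _ _ hk.2.1.1).1 hk.2.1.2
      apply Fin.ext
      simp only at h2
      omega
    exact (Finset.card_le_card h1).trans (by rw [Finset.card_singleton]; omega)

theorem rt_A {n : ℕ} (hn : 0 < n) : RT (MAdj (LieRecognition.BNCox.cA n)) := by
  refine rt_of_go (go_path _ hn fun i j hij => ?_)
  have hij' : (i : ℕ) ≠ j := fun e => hij (Fin.ext e)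
  change LieRecognition.CoxClass.mA (i : ℕ) (j : ℕ) ≠ 2 ↔ _
  unfold LieRecognition.CoxClass.mA
  split_ifs <;> omega

theorem rt_B {n : ℕ} (hn : 0 < n) : RT (MAdj (CoxeterMatrix.B n)) := by
  refine rt_of_go (go_path _ hn fun i j hij => ?_)
  have hij' : (i : ℕ) ≠ j := fun e => hij (Fin.ext e)
  have hi := i.2
  have hj := j.2
  simp only [CoxeterMatrix.B, Matrix.of_apply, hij, if_false]
  split_ifs <;> omega

theorem go_D (n : ℕ) : GO (Nodes.TypeD.M (n + 3)) := by
  have hM : ∀ i j : Fin (n + 5), i ≠ j → ((Nodes.TypeD.M (n + 3)) i j ≠ 2 ↔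
      Nodes.TypeD.Adj i j ∨ Nodes.TypeD.Adj j i) := by
    intro i j hij
    rw [Nodes.TypeD.M_apply, if_neg hij]
    split_ifs with h <;> simp [h]
  -- valencies
  have hv1 : ∀ k : Fin (n + 5), n + 3 ≤ (k : ℕ) → val (Nodes.TypeD.M (n + 3)) k ≤ 1 := by
    intro k hk
    rw [val, Finset.card_le_one]
    intro a ha b hb
    rw [Finset.mem_filter] at ha hb
    have h1 := (hM _ _ ha.2.1).1 ha.2.2
    have h2 := (hM _ _ hb.2.1).1 hb.2.2
    unfold Nodes.TypeD.Adj at h1 h2
    have ha2 := a.2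
    have hb2 := b.2
    have hk2 := k.2
    apply Fin.ext
    omega
  have hv2 : 1 < val (Nodes.TypeD.M (n + 3)) ⟨n + 1, by omega⟩ := by
    rw [val, Finset.one_lt_card]
    refine ⟨⟨n, by omega⟩, ?_, ⟨n + 2, by omega⟩, ?_, ?_⟩
    · rw [Finset.mem_filter]
      have hne : (⟨n + 1, by omega⟩ : Fin (n + 5)) ≠ ⟨n, by omega⟩ := fun e => by
        have := congrArg Fin.val e
        simp only at this
        omega
      exact ⟨Finset.mem_univ _, hne, (hM _ _ hne).2 (Or.inr (Or.inl ⟨by simp only; omega, rfl⟩))⟩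
    · rw [Finset.mem_filter]
      have hne : (⟨n + 1, by omega⟩ : Fin (n + 5)) ≠ ⟨n + 2, by omega⟩ := fun e => by
        have := congrArg Fin.val e
        simp only at this
        omega
      exact ⟨Finset.mem_univ _, hne, (hM _ _ hne).2 (Or.inl (Or.inl ⟨by simp only; omega, rfl⟩))⟩
    · intro e
      have := congrArg Fin.val e
      simp only at this
      omega
  refine ⟨val (Nodes.TypeD.M (n + 3)) ⟨n + 2, by omega⟩, card_val_D (n + 1),
    fun i => if (i : ℕ) ≤ n + 2 then n + 2 - i else 1, ?_⟩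
  intro i
  have hi := i.2
  by_cases h1 : (i : ℕ) = n + 2
  · left
    congr 1
    exact Fin.ext h1
  · right
    rcases Nat.lt_or_ge (i : ℕ) (n + 2) with h2 | h2
    · have hne : (⟨(i : ℕ) + 1, by omega⟩ : Fin (n + 5)) ≠ i := fun e => by
        have := congrArg Fin.val e
        simp only at this
        omega
      refine ⟨⟨(i : ℕ) + 1, by omega⟩, ⟨hne, (hM _ _ hne).2 (Or.inr (Or.inl ⟨by simp only; omega, rfl⟩))⟩, ?_, ?_⟩
      · simp only
        split_ifs <;> omega
      · have h3 : (Finset.univ.filter fun k : Fin (n + 5) => MAdj (Nodes.TypeD.M (n + 3)) ⟨(i : ℕ) + 1, by omega⟩ k ∧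
            (if (i : ℕ) ≤ n + 2 then n + 2 - (i : ℕ) else 1) ≤ (if (k : ℕ) ≤ n + 2 then n + 2 - (k : ℕ) else 1) ∧
            val (Nodes.TypeD.M (n + 3)) k = val (Nodes.TypeD.M (n + 3)) i) ⊆ {i} := by
          intro k hk
          rw [Finset.mem_filter] at hk
          rw [Finset.mem_singleton]
          have h4 := (hM _ _ hk.2.1.1).1 hk.2.1.2
          have h5 := hk.2.2.1
          unfold Nodes.TypeD.Adj at h4
          simp only at h4 h5
          have hk2 := k.2
          by_contra hki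
          have hki' : (k : ℕ) ≠ i := fun e => hki (Fin.ext e)
          -- `k ≥ n + 3` and `i = n + 1`
          have h6 : n + 3 ≤ (k : ℕ) ∧ (i : ℕ) = n + 1 := by
            split_ifs at h5 <;> omega
          have h7 := hv1 k h6.1
          have h8 : i = ⟨n + 1, by omega⟩ := Fin.ext h6.2
          have h9 := hk.2.2.2
          rw [h8] at h9
          omega
        exact (Finset.card_le_card h3).trans (by rw [Finset.card_singleton]; omega)
    · have hne : (⟨n + 2, by omega⟩ : Fin (n + 5)) ≠ i := fun e => by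
        have := congrArg Fin.val e
        simp only at this
        omega
      refine ⟨⟨n + 2, by omega⟩, ⟨hne, (hM _ _ hne).2 (Or.inl ?_)⟩, ?_, ?_⟩
      · unfold Nodes.TypeD.Adj
        show (i : ℕ) < n + 3 + 1 ∧ n + 2 + 1 = (i : ℕ) ∨ (i : ℕ) = n + 3 + 1 ∧ n + 2 + 2 = (i : ℕ)
        omega
      · simp only
        split_ifs <;> omega
      · have h3 : (Finset.univ.filter fun k : Fin (n + 5) => MAdj (Nodes.TypeD.M (n + 3)) ⟨n + 2, by omega⟩ k ∧
            (if (i : ℕ) ≤ n + 2 then n + 2 - (i : ℕ) else 1) ≤ (if (k : ℕ) ≤ n + 2 then n + 2 - (k : ℕ) else 1) ∧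
            val (Nodes.TypeD.M (n + 3)) k = val (Nodes.TypeD.M (n + 3)) i) ⊆ {⟨n + 3, by omega⟩, ⟨n + 4, by omega⟩} := by
          intro k hk
          rw [Finset.mem_filter] at hk
          have h4 := (hM _ _ hk.2.1.1).1 hk.2.1.2
          unfold Nodes.TypeD.Adj at h4
          simp only at h4
          have hk2 := k.2
          rw [Finset.mem_insert, Finset.mem_singleton, Fin.ext_iff, Fin.ext_iff]
          simp only
          by_contra hcon
          have h6 : (k : ℕ) = n + 1 := by omega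
          have h7 := hv1 i (by omega)
          have h8 : k = ⟨n + 1, by omega⟩ := Fin.ext h6
          have h9 := hk.2.2.2
          rw [h8] at h9
          omega
        exact (Finset.card_le_card h3).trans Finset.card_le_two

theorem go_G : GO CoxeterMatrix.G₂ :=
  ⟨val CoxeterMatrix.G₂ 0, by decide +kernel, ![0, 0], by decide +kernel⟩

theorem go_F : GO CoxeterMatrix.F₄ :=
  ⟨val CoxeterMatrix.F₄ 1, by decide +kernel, ![1, 0, 0, 1], by decide +kernel⟩

theorem go_E6 : GO CoxeterMatrix.E₆ :=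
  ⟨val CoxeterMatrix.E₆ 3, by decide +kernel, ![2, 1, 1, 0, 1, 2], by decide +kernel⟩

theorem go_E7 : GO CoxeterMatrix.E₇ :=
  ⟨val CoxeterMatrix.E₇ 3, by decide +kernel, ![2, 1, 1, 0, 1, 2, 3], by decide +kernel⟩

theorem go_E8 : GO CoxeterMatrix.E₈ :=
  ⟨val CoxeterMatrix.E₈ 3, by decide +kernel, ![2, 1, 1, 0, 1, 2, 3, 4], by decide +kernel⟩

theorem d4_aux : ∀ σ : Equiv.Perm (Fin 4), (∀ i j, MAdj (Nodes.TypeD.M 2) (σ i) (σ j) ↔ MAdj (Nodes.TypeD.M 2) i j) →
    σ 1 = 1 ∧ (σ ^ 2 = 1 ∨ (σ ^ 3 = 1 ∧ ∀ i j, i ≠ 1 → j ≠ 1 → j = i ∨ j = σ i ∨ j = σ (σ i))) := by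
  decide +kernel

theorem eq_one_of_odd {α : Type*} {σ : Equiv.Perm α} (h : σ ^ 2 = 1) (hodd : Odd (orderOf σ)) : σ = 1 := by
  have h1 : orderOf σ ∣ 2 := orderOf_dvd_of_pow_eq_one h
  rcases (Nat.dvd_prime Nat.prime_two).1 h1 with h2 | h2
  · exact orderOf_eq_one_iff.1 h2
  · rw [h2] at hodd
    exact absurd hodd (by decide)

theorem rt_D4 : RT (MAdj (Nodes.TypeD.M 2)) := by
  intro σ hσ hodd
  obtain ⟨-, h2 | ⟨h3, h4⟩⟩ := d4_aux σ hσ
  · exact Or.inl (eq_one_of_odd h2 hodd)
  by_cases h1 : σ = 1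
  · exact Or.inl h1
  refine Or.inr ⟨orderOf_eq_prime h3 h1, fun J hJ τ hτ => ?_⟩
  obtain ⟨ht, -⟩ := d4_aux τ hτ
  have hin : ∀ x ∈ J, σ x ∈ J := fun x hx => by rw [← hJ]; exact ⟨x, hx, rfl⟩
  have hle : τ '' J ⊆ J := by
    rintro _ ⟨x, hx, rfl⟩
    by_cases hx1 : x = 1
    · rw [hx1, ht]
      rwa [hx1] at hx
    · have h5 : τ x ≠ 1 := fun e => hx1 (τ.injective (e.trans ht.symm))
      rcases h4 x (τ x) hx1 h5 with e | e | e
      · rw [e]; exact hx
      · rw [e]; exact hin _ hx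
      · rw [e]; exact hin _ (hin _ hx)
  refine Set.eq_of_subset_of_ncard_le hle ?_ (Set.toFinite _)
  rw [Set.ncard_image_of_injective _ τ.injective]

theorem rt_D (n : ℕ) : RT (MAdj (Nodes.TypeD.M (n + 2))) := by
  rcases Nat.eq_zero_or_pos n with rfl | hn
  · exact rt_D4
  · obtain ⟨n, rfl⟩ : ∃ k, n = k + 1 := ⟨n - 1, by omega⟩
    exact rt_of_go (go_D n)

theorem rt_of_le_two {l : ℕ} (hl : l ≤ 2) (adj : Fin l → Fin l → Prop) : RT adj := by
  intro σ _ hodd
  left
  ext i
  rw [fix_of_card_le_two hodd Finset.univ (by rw [Finset.card_univ, Fintype.card_fin]; exact hl)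
    (fun k _ => Finset.mem_univ _) (Finset.mem_univ i)]
  rfl

end Cfsg.Agent.H537.RV
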