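import Cfsg.Agent.H537.RV.SRowGraph
import Cfsg.Agent.H520.Fam

/-!
# TEAM RV, S4311 part (4): groups of Lie type in characteristic `p ∈ π` (helper537)

* `hasDg_of_lie` : every simple group of Lie type has a (B,N)-pair with diagram `RT`;
* `srow_of_lie` : `SRow π S` for `S` simple of Lie type in characteristic `p ∈ π`.
-/

set_option autoImplicit false
set_option linter.unusedSectionVars false

namespace Cfsg.Agent.H537.RV

open Subgroup Cfsg Cfsg.Agent.Schreier.Tools Cfsg.Agent.Schreier.BNSch Cfsg.Agent.H566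
open CoxeterSystem Cfsg.Agent.ChevalleyStructure.CoxeterGeom Cfsg.Agent.Tits.Roots Cfsg.Agent.Tits.Core
  Cfsg.Agent.Tits.RootComb Cfsg.Agent.Nodes.Comb Cfsg.Agent.Nodes.Reps Cfsg.Agent.Nodes.BNOf Cfsg.Agent.FixBN

/-- split version of `HasDg` -/
def HasDgS (p : ℕ) (K : Type*) [Group K] : Prop :=
  ∃ (P : Cfsg.BNPair K) (U : Subgroup K) (l : ℕ) (s : Fin l → K), Split P p U ∧ Set.range s = P.S ∧
    Function.Injective s ∧ RT (fun i j => i ≠ j ∧ s i * s j * (s i)⁻¹ * (s j)⁻¹ ∉ P.B)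

theorem HasDgS.congr {p : ℕ} {K L : Type*} [Group K] [Group L] (e : K ≃* L) (h : HasDgS p K) : HasDgS p L := by
  obtain ⟨P, U, l, s, h, hs, hinj, hRT⟩ := h
  refine ⟨Transport.mapBN e P, U.map e.toMonoidHom, l, fun i => e (s i), Transport.split e P h, ?_,
    fun i j hij => hinj (e.injective hij), ?_⟩
  · show Set.range (e ∘ s) = e '' P.S
    rw [Set.range_comp, hs]
  · have h1 : (fun i j => i ≠ j ∧ e (s i) * e (s j) * (e (s i))⁻¹ * (e (s j))⁻¹ ∉ (Transport.mapBN e P).B) =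
        (fun i j => i ≠ j ∧ s i * s j * (s i)⁻¹ * (s j)⁻¹ ∉ P.B) := by
      funext i j
      apply propext
      refine and_congr_right fun _ => not_congr ?_
      have h2 : e (s i) * e (s j) * (e (s i))⁻¹ * (e (s j))⁻¹ = e (s i * s j * (s i)⁻¹ * (s j)⁻¹) := by
        simp
      rw [h2]
      constructor
      · rintro ⟨b, hb, hbe⟩
        have : b = s i * s j * (s i)⁻¹ * (s j)⁻¹ := e.injective hbe
        rwa [← this]
      · intro hb
        exact ⟨_, hb, rfl⟩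
    rw [h1]
    exact hRT

theorem HasDgS.dg {p : ℕ} [Fact p.Prime] {K : Type*} [Group K] [Finite K] (h : HasDgS p K) : HasDg p K := by
  obtain ⟨P, U, l, s, h, hs, hinj, hRT⟩ := h
  obtain ⟨Q, hQ⟩ := h.isP.exists_le_sylow
  have hQU : (Q : Subgroup K) = U := H794.DefClosed.eq_of_isPGroup h Q.isPGroup' hQ
  subst hQU
  exact ⟨P, Q, l, s, h.normalizer_eq, hs, hinj, hRT⟩

/-- A generating root group datum with diagram `RT`. -/
def HasRGDT (p : ℕ) (G : Type*) [Group G] : Prop :=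
  ∃ (l : ℕ) (M : CoxeterMatrix (Fin l)) (A : Fin l → Fin l → ℤ) (h : IsCartan M A) (T : Subgroup G)
    (n : Fin l → G) (X : (Fin l → ℤ) → Subgroup G), Finite M.Group ∧ RGD M.toCoxeterSystem h p T n X ∧
      Nodes.RGDLib.G1 M.toCoxeterSystem h X = ⊤ ∧ RT (MAdj M) ∧ 0 < l

theorem HasRGDT.dgS {p : ℕ} (hp : p.Prime) {G : Type*} [Group G] [IsSimpleGroup G]
    (hG : HasRGDT p G) : HasDgS p G := by
  obtain ⟨l, M, A, h, T, n, X, hW, R, hX, hRT, hl⟩ := hG
  have hgen : RGD.B M.toCoxeterSystem h T X ⊔ NN M.toCoxeterSystem R.nsys = ⊤ := by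
    rw [eq_top_iff, ← hX]
    exact Nodes.RGDLib.rgd_G1_le R
  have hne : (R.bnPair hgen).S.Nonempty := ⟨n ⟨0, hl⟩, ⟨0, hl⟩, rfl⟩
  have hS := SplitRGD.split_of_rgd hp R hgen (Cfsg.Agent.Tits.OfBN.normalCore_eq_bot (R.bnPair hgen) hne)
  refine ⟨R.bnPair hgen, _, l, n, hS, rfl, R.n_injective, ?_⟩
  have h1 : (fun i j => i ≠ j ∧ n i * n j * (n i)⁻¹ * (n j)⁻¹ ∉ (R.bnPair hgen).B) = MAdj M := by
    funext i j
    apply propext
    refine and_congr_right fun hij => not_congr ?_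
    exact comm_mem_iff R hij
  rw [h1]
  exact hRT

theorem HasRGDT.of_equiv {p : ℕ} {G H : Type*} [Group G] [Group H] (e : G ≃* H) (hG : HasRGDT p G) : HasRGDT p H := by
  obtain ⟨l, M, A, h, T, n, X, hW, R, hX, hc⟩ := hG
  refine ⟨l, M, A, h, T.map e.toMonoidHom, fun i => e (n i), fun x => (X x).map e.toMonoidHom, hW,
    Nodes.RGDLib.rgd_map_of_injective R e.toMonoidHom e.injective, ?_, hc⟩
  have h1 : (Nodes.RGDLib.G1 M.toCoxeterSystem h X).map e.toMonoidHom =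
      Nodes.RGDLib.G1 M.toCoxeterSystem h (fun x => (X x).map e.toMonoidHom) := by
    unfold Nodes.RGDLib.G1 RGD.Sup
    rw [Subgroup.map_iSup]
  rw [← h1, hX, Subgroup.map_top_of_surjective _ e.surjective]

/-! ### Type `A_n` -/

theorem rgdt_PSL {F : Type*} [Field F] [Finite F] (n : ℕ) (hn : 0 < n) {p : ℕ} [Fact p.Prime] [CharP F p] :
    HasRGDT p (Matrix.ProjectiveSpecialLinearGroup (Fin (n + 1)) F) := by
  have : Finite (LieRecognition.BNCox.cA n).Group :=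
    Nodes.RootsA.finite_W (LieRecognition.BNCox.cA n).toCoxeterSystem (Nodes.RootsA.isCartan n)
  exact ⟨n, LieRecognition.BNCox.cA n, Nodes.RootsA.AA n, Nodes.RootsA.isCartan n, _, _, _, this,
    Nodes.RGDTypeA.rgd_psl _ _, Nodes.RGDTypeA.G1_psl_eq_top _ _, rt_A hn, hn⟩

section Witt

open Cfsg.Agent.Nodes Cfsg.Agent.Nodes.WittAll Cfsg.Agent.Nodes.WittU Cfsg.Agent.Nodes.WittInst
  Cfsg.Agent.Nodes.WittRoot Cfsg.Agent.Nodes.WittRGD
  Cfsg.Agent.TitsThree.Siegel Cfsg.Agent.TitsThree.SiegelGen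
  Cfsg.Agent.TitsThree.WittFrame Cfsg.Agent.TitsThree.WBridge Cfsg.Agent.TitsThree.WittWeyl
  Cfsg.Agent.TitsThree.FrameCN

variable {F : Type*} [Field F] {V : Type*} [AddCommGroup V] [Module F V] {H : HForm F V} {n : ℕ}
  {Fr : Frame H (Fin n)}

theorem rgdt_C {K : Type*} [Group K] (M : Model Fr K) {p : ℕ} (hA : AmbT Fr p M.I) [Finite V] [Finite F]
    [Fact p.Prime] [CharP F p] {p0 : Fr.Adm} (hp0 : p0.c ≠ 0) (hn : 0 < n) : HasRGDT p K := by
  have : Finite (V ≃ₗ[F] V) := Finite.of_injective (fun g : V ≃ₗ[F] V => (g : V → V)) DFunLike.coe_injective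
  have hWf : Finite (CoxeterMatrix.B n).Group := TypeC.finite_W (CoxeterMatrix.B n).toCoxeterSystem
  exact ⟨n, CoxeterMatrix.B n, TypeC.A n, TypeC.isCartan n, _, _, _, hWf,
    rgdC_model M hA hp0 (CoxeterMatrix.B n).toCoxeterSystem, WittModel.G1_eq_top _ hn _, rt_B hn, hn⟩

theorem rgdt_PSU {F : Type*} [Field F] [Fintype F] {q N : ℕ} (hF : Fintype.card F = q ^ 2) (hN : 3 ≤ N) {p : ℕ}
    [Fact p.Prime] [CharP F p] : HasRGDT p (Cfsg.PSU N F q) := by
  obtain ⟨m, hm⟩ : ∃ m, N = 2 * m ∨ N = 2 * m + 1 := ⟨N / 2, by omega⟩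
  obtain ⟨W, -⟩ := exists_wframe hF hm
  obtain ⟨p0, hp0, -⟩ := exists_adm hF W
  exact rgdt_C (TitsThree.KInstU.model hF (by omega) W) (AmbT.of_amb (amb_U hF W) p) hp0 (by omega)

theorem rgdt_PSp {F : Type*} [Field F] [Finite F] {m : ℕ} (hm : 2 ≤ m) {p : ℕ}
    [Fact p.Prime] [CharP F p] : HasRGDT p (Cfsg.PSp m F) :=
  rgdt_C (TitsThree.KInstSp.model m F) (AmbT.of_amb amb_Sp p) (p0 := TitsThree.SpIdent.adm 1) one_ne_zero (by omega)

end Witt

section Orthogonal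

open QuadraticMap
open Cfsg.Agent.LieClassical Cfsg.Agent.LieClassical.OrthCore Cfsg.Agent.LieClassical.OrthTrans
open Cfsg.Agent.LieClassical.OrthSimple Cfsg.Agent.LieClassical.OrthFinite
open Cfsg.Agent.LieClassical.OrthForms
open Cfsg.Agent.TitsThree.KSideO Cfsg.Agent.TitsThree.StdData
open Cfsg.Agent.Nodes Cfsg.Agent.Nodes.WittAll Cfsg.Agent.Nodes.WittU Cfsg.Agent.Nodes.WittInst
  Cfsg.Agent.TitsThree.Siegel Cfsg.Agent.TitsThree.SiegelGen
  Cfsg.Agent.TitsThree.WittFrame Cfsg.Agent.TitsThree.WBridge Cfsg.Agent.TitsThree.WittWeyl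
  Cfsg.Agent.TitsThree.FrameCN

variable {F : Type*} [Field F] {m : ℕ}

theorem rgdt_PO_odd [Finite F] (h2 : (2 : F) ≠ 0) (hm : 2 ≤ m) {p : ℕ} [Fact p.Prime] [CharP F p] :
    HasRGDT p (Cfsg.POmega F (Cfsg.quadFormOdd m F)) := by
  rw [← coe_oddForm]
  have hG : Good (oddForm m F) := by
    apply good_of_finite (nondeg_oddForm m F h2)
    rw [Module.finrank_fintype_fun_eq_card, Fintype.card_sum, Fintype.card_sum, Fintype.card_fin,
      Fintype.card_unit]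
    omega
  have hp : ((embOdd m F).ngt ⟨1, -1 ^ 2, rfl⟩).c ≠ 0 := by
    change (1 : F)⁻¹ * (-1 ^ 2) ≠ 0
    simp
  exact rgdt_C (model (wodd m F) hG ⟨_, hp⟩) (AmbT.of_amb (amb_O_of_two _ h2) p) hp (by omega)

theorem rgdt_PO_minus [Finite F] {a b : F} (hab : ∀ z₁ z₂ : F, z₁ ^ 2 + a * z₁ * z₂ + b * z₂ ^ 2 = 0 → z₁ = 0 ∧ z₂ = 0)
    (hm : 2 ≤ m) {p : ℕ} [Fact p.Prime] [CharP F p] :
    HasRGDT p (Cfsg.POmega F (Cfsg.quadFormMinus m F a b)) := by
  rw [← coe_minusForm]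
  have hG : Good (minusForm m F a b) := by
    apply good_of_finite (nondeg_minusForm m F a b hab)
    rw [Module.finrank_fintype_fun_eq_card, Fintype.card_sum, Fintype.card_sum, Fintype.card_fin,
      Fintype.card_fin]
    omega
  have hp : ((embMinus m F a b hab).ngt ⟨(1, 0), -nf a b (1, 0), rfl⟩).c ≠ 0 := by
    change (1 : F)⁻¹ * (-nf a b (1, 0)) ≠ 0
    simp [nf]
  have hA : AmbT (toFrame (wminus m F a b hab)) p (E (minusForm m F a b)) := by
    by_cases h2 : (2 : F) = 0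
    · have hp2 : p = 2 := by
        have h3 : CharP F 2 := CharTwo.of_one_ne_zero_of_two_eq_zero one_ne_zero h2
        exact CharP.eq F ‹CharP F p› h3
      subst hp2
      exact ambT_O _ fun g hg hg2 hb => fixp_minus a b hab h2 hm hG hg hg2 hb
    · exact AmbT.of_amb (amb_O_of_two _ h2) p
  exact rgdt_C (model (wminus m F a b hab) hG ⟨_, hp⟩) hA hp (by omega)

theorem rgdt_PO_plus [Finite F] (n : ℕ) {p : ℕ} [Fact p.Prime] [CharP F p] :
    HasRGDT p (Cfsg.POmega F (Cfsg.quadFormPlus (n + 4) F)) := by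
  rw [← coe_plusForm]
  have hG : Good (plusForm (n + 4) F) := by
    apply good_of_finite (nondeg_plusForm (n + 4) F)
    rw [Module.finrank_fintype_fun_eq_card, Fintype.card_sum, Fintype.card_fin]
    omega
  have hWf : Finite (Nodes.TypeD.M (n + 2)).Group := Nodes.TypeD.finite_W (Nodes.TypeD.M (n + 2)).toCoxeterSystem
  exact ⟨n + 4, Nodes.TypeD.M (n + 2), Nodes.TypeD.A (n + 2), Nodes.TypeD.isCartan (n + 2), _, _, _,
    hWf, rgdD_model (wplus (n + 4) F) hG (amb_plus _) (adm_plus _) _,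
    G1D_eq_top (wplus (n + 4) F) (toPOmega hG) (toPOmega_surjective hG) (adm_plus _) _, rt_D n, by omega⟩

end Orthogonal

open Cfsg.Lie Cfsg.Agent.ChevalleyStructure Cfsg.Agent.ChevalleyStructure.Elts
open Cfsg.Agent.Nodes.RGDChev
open Cfsg.Agent.ChevalleyStructure.RootVec Cfsg.Agent.ChevalleyStructure.RootVecTab
  Cfsg.Agent.ChevalleyStructure.NPerm Cfsg.Agent.ChevalleyStructure.CoxeterGeomTypes

universe u

theorem rgdt_group {D : ChevalleyDatum} {l : ℕ} {M : CoxeterMatrix (Fin l)} (hp : IsType D l M) {K : Type u} [Field K]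
    [Finite K] (p : ℕ) [CharP K p] (hv : RT (MAdj M)) (hl : 0 < l) : HasRGDT p ↥(D.group K) := by
  have : Fact p.Prime := ⟨CharP.char_is_prime K p⟩
  exact ⟨l, M, _, hp.isCartan, _, _, _, finite_W hp M.toCoxeterSystem,
    rgd (K := K) hp M.toCoxeterSystem p, G1_eq_top hp _, hv, hl⟩

theorem rgdt_of_exc {p : ℕ} {G : Type*} [Group G] (hG : IsExceptionalChevChar p G) : HasRGDT p G := by
  obtain ⟨F, _, _, _, ⟨-, ⟨e⟩⟩ | ⟨⟨e⟩⟩ | ⟨⟨e⟩⟩ | ⟨⟨e⟩⟩ | ⟨⟨e⟩⟩⟩ := hG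
  · exact (rgdt_group (l := 2) (M := CoxeterMatrix.G₂) (by simp [IsType, typeList]) (K := F) p
      (rt_of_go go_G) (by norm_num)).of_equiv e.symm
  · exact (rgdt_group (l := 4) (M := CoxeterMatrix.F₄) (by simp [IsType, typeList]) (K := F) p
      (rt_of_go go_F) (by norm_num)).of_equiv e.symm
  · exact (rgdt_group (l := 6) (M := CoxeterMatrix.E₆) (by simp [IsType, typeList]) (K := F) p
      (rt_of_go go_E6) (by norm_num)).of_equiv e.symm
  · exact (rgdt_group (l := 7) (M := CoxeterMatrix.E₇) (by simp [IsType, typeList]) (K := F) p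
      (rt_of_go go_E7) (by norm_num)).of_equiv e.symm
  · exact (rgdt_group (l := 8) (M := CoxeterMatrix.E₈) (by simp [IsType, typeList]) (K := F) p
      (rt_of_go go_E8) (by norm_num)).of_equiv e.symm

theorem rgdt_twE6 {K : Type u} [Field K] [Fintype K] {q : ℕ} (hq : IsPrimePow q) (hK : Fintype.card K = q ^ 2)
    (p : ℕ) [CharP K p] : HasRGDT p ↥(Lie.twistedE6 K q) := by
  have : Fact p.Prime := ⟨CharP.char_is_prime K p⟩
  obtain ⟨φ, hφ, hqq⟩ := ChevalleyStructure.TwE6Basic.exists_frob hq hK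
  exact ⟨4, CoxeterMatrix.F₄, _, Nodes.RGDTwE6.isCartan, _, _, _,
    Nodes.RGDFold.finite_W (hp := Nodes.RGDTwE6.hp) CoxeterMatrix.F₄.toCoxeterSystem Nodes.RGDTwE6.isCartan Nodes.RGDTwE6.foldData,
    Nodes.RGDTwE6.rgd _ hφ hqq p, Nodes.RGDTwE6.G1_eq_top _ hφ hqq, rt_of_go go_F, by norm_num⟩

theorem rgdt_twD4 {K : Type u} [Field K] [Fintype K] {q : ℕ} (hq : IsPrimePow q) (hK : Fintype.card K = q ^ 3)
    (p : ℕ) [CharP K p] : HasRGDT p ↥(Lie.twistedD4 K q) := by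
  have : Fact p.Prime := ⟨CharP.char_is_prime K p⟩
  obtain ⟨φ, hφ⟩ := ChevalleyStructure.D4Fixed.exists_frob hq hK
  exact ⟨2, CoxeterMatrix.G₂, _, Nodes.RGDTwD4.isCartan, _, _, _,
    Nodes.RGDFold.finite_W (hp := Nodes.RGDTwD4.hp) CoxeterMatrix.G₂.toCoxeterSystem Nodes.RGDTwD4.isCartan Nodes.RGDTwD4.foldData,
    Nodes.RGDTwD4.rgd _ hK hφ p, Nodes.RGDTwD4.G1_eq_top _ hK hφ, rt_of_go go_G, by norm_num⟩

theorem rgdt_of_tw {p : ℕ} {G : Type*} [Group G] (hG : IsTwistedE6D4Char p G) : HasRGDT p G := by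
  obtain ⟨K, _, _, _, q, hq, ⟨hK, ⟨e⟩⟩ | ⟨hK, ⟨e⟩⟩⟩ := hG
  · exact (rgdt_twE6 hq hK p).of_equiv e.symm
  · exact (rgdt_twD4 hq hK p).of_equiv e.symm

/-! ### The Suzuki and Ree groups -/

theorem dgS_of_sz {G : Type*} [Group G] (h : Cfsg.Lie.IsoSuzuki G) : HasDgS 2 G := by
  obtain ⟨K, i1, i2, m, hm, hK, ⟨e⟩⟩ := h
  have H := LieRecognition.SzMatrix.good hK
  have hs : IsSimpleGroup ↥(Cfsg.Lie.Sz K (2 ^ (m + 1))) := Cfsg.Agent.S1162.result hm hK
  refine HasDgS.congr e.symm ⟨Cfsg.Agent.Omega.ML.LieRow.SzSplit.bnPair H, H.unip, 1, fun _ => H.w,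
    Cfsg.Agent.Omega.ML.LieRow.SzSplit.split hm hK H hs, ?_,
    fun i j _ => Subsingleton.elim i j, rt_of_le_two (by norm_num) _⟩
  show Set.range (fun _ : Fin 1 => H.w) = {H.w}
  exact Set.range_const

theorem dgS_of_twF4 {G : Type*} [Group G] (h : Cfsg.Lie.Iso2F4 G) : HasDgS 2 G := by
  obtain ⟨K, i1, i2, m, hm, hK, ⟨e⟩⟩ := h
  obtain ⟨Q, UE, s, t, hp, -⟩ := ParSys.Fam.TwoFFour.exists_all hm hK
  refine HasDgS.congr e.symm ⟨Q, UE, 2, ![s, t], hp.split, ?_, ?_, rt_of_le_two (by norm_num) _⟩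
  · rw [hp.S]
    ext x
    simp only [Set.mem_range, Fin.exists_fin_two, Matrix.cons_val_zero, Matrix.cons_val_one, Set.mem_insert_iff,
      Set.mem_singleton_iff]
    constructor
    · rintro (h | h)
      · exact Or.inl h.symm
      · exact Or.inr h.symm
    · rintro (h | h)
      · exact Or.inl h.symm
      · exact Or.inr h.symm
  · intro i j hij
    have hst := hp.ne
    fin_cases i <;> fin_cases j <;> simp_all

section ree

open Cfsg.Agent.FixBN.ReeSplit Cfsg.Agent.LieRecognition.ReeAbs Cfsg.Agent.LieRecognition.ReeSylowThree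

theorem dgS_of_ree {G : Type*} [Group G] (h : Cfsg.Lie.IsoRee G) : HasDgS 3 G := by
  obtain ⟨K, _, _, m, hm, hK, ⟨e⟩⟩ := h
  obtain ⟨U, h, n, D⟩ := Cfsg.Agent.ChevalleyStructure.Ree.Data.exists_data hK
  refine HasDgS.congr e.symm ⟨bnPair D, uSub D, 1, fun _ => n, split hK D, ?_,
    fun i j _ => Subsingleton.elim i j, rt_of_le_two (by norm_num) _⟩
  show Set.range (fun _ : Fin 1 => n) = {n}
  exact Set.range_const

end ree

/-- **The diagrams of the groups of Lie type.** -/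
theorem hasDg_of_lie {p : ℕ} (hp : p.Prime) {G : Type u} [Group G] [Finite G] [IsSimpleGroup G]
    (h : IsLieTypeChar p G) : HasDg p G := by
  have : Fact p.Prime := ⟨hp⟩
  apply HasDgS.dg
  rcases h with h | h | h | h | h | h | h | h | h | h | h
  · obtain ⟨F, _, _, _, n, hn, -, ⟨e⟩⟩ := h
    obtain ⟨n, rfl⟩ : ∃ k, n = k + 1 := ⟨n - 1, by omega⟩
    exact HasRGDT.dgS hp ((rgdt_PSL n (by omega)).of_equiv e.symm)
  · obtain ⟨F, _, _, _, m, hm, -, ⟨e⟩⟩ := h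
    exact HasRGDT.dgS hp ((rgdt_PSp hm).of_equiv e.symm)
  · obtain ⟨F, _, _, _, n, q, hF, hn, -, ⟨e⟩⟩ := h
    exact HasRGDT.dgS hp ((rgdt_PSU hF hn).of_equiv e.symm)
  · obtain ⟨F, _, _, _, m, hm, hodd, ⟨e⟩⟩ := h
    have h2 : (2 : F) ≠ 0 := by
      intro h2
      have h3 : CharP F 2 := CharTwo.of_one_ne_zero_of_two_eq_zero one_ne_zero h2
      obtain ⟨k, -, hk⟩ := FiniteField.card F 2
      rw [hk] at hodd
      exact absurd (even_two.pow_of_ne_zero k.ne_zero) (Nat.not_even_iff_odd.2 hodd)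
    exact HasRGDT.dgS hp ((rgdt_PO_odd h2 (by omega)).of_equiv e.symm)
  · obtain ⟨F, _, _, _, m, hm, ⟨e⟩⟩ := h
    obtain ⟨n, rfl⟩ : ∃ n, m = n + 4 := ⟨m - 4, by omega⟩
    exact HasRGDT.dgS hp ((rgdt_PO_plus n).of_equiv e.symm)
  · obtain ⟨F, _, _, _, m, a, b, hm, hab, ⟨e⟩⟩ := h
    exact HasRGDT.dgS hp ((rgdt_PO_minus hab (by omega)).of_equiv e.symm)
  · exact HasRGDT.dgS hp (rgdt_of_exc h)
  · exact HasRGDT.dgS hp (rgdt_of_tw h)
  · obtain ⟨rfl, h⟩ := h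
    exact dgS_of_sz h
  · obtain ⟨rfl, h⟩ := h
    exact dgS_of_twF4 h
  · obtain ⟨rfl, h⟩ := h
    exact dgS_of_ree h

/-- **`SRow` for the groups of Lie type in characteristic `p ∈ π`** -/
theorem srow_of_lie {π : Set ℕ} {p : ℕ} (hp : p.Prime) (hpπ : p ∈ π) {S : Type u} [Group S] [Finite S]
    [IsSimpleGroup S] (h : IsLieTypeChar p S) : Cfsg.Agent.H561.RV.SRow π S := by
  have : Fact p.Prime := ⟨hp⟩
  exact srow_of_dg hpπ (norLe_of_lie hp h) (hasDg_of_lie hp h)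

/-- the dichotomy for the groups of Lie type in characteristic `p ∈ π` -/
theorem dich_of_lie {π : Set ℕ} {p : ℕ} (hp : p.Prime) (hpπ : p ∈ π) {S : Type u} [Group S] [Finite S]
    [IsSimpleGroup S] (h : IsLieTypeChar p S) : Dich π S := by
  have : Fact p.Prime := ⟨hp⟩
  exact dich_of_dg hpπ (norLe_of_lie hp h) (hasDg_of_lie hp h)

end Cfsg.Agent.H537.RV
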